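import Mathlib
import Cfsg.Agent.Lib.MatConj.CentDet
import Cfsg.Agent.Lib.MatConj.Semi

/-!
Products of two conjugates of a regular semisimple element in `SL(3, F)` (Sourour's
factorization in dimension three).
-/

set_option autoImplicit false

namespace CfsgLib.Spec

open Matrix Polynomial CfsgLib.MatConj

section ring
variable {R : Type*} [CommRing R]

/-- Second elementary invariant of a `3 × 3` matrix. -/
def esym3 (A : Matrix (Fin 3) (Fin 3) R) : R :=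
  A 0 0 * A 1 1 - A 0 1 * A 1 0 + (A 0 0 * A 2 2 - A 0 2 * A 2 0) + (A 1 1 * A 2 2 - A 1 2 * A 2 1)

theorem charpoly_three (A : Matrix (Fin 3) (Fin 3) R) :
    A.charpoly = X ^ 3 - C (A 0 0 + A 1 1 + A 2 2) * X ^ 2 + C (esym3 A) * X - C A.det := by
  rw [Matrix.charpoly, det_fin_three, det_fin_three]
  simp [charmatrix_apply_eq, charmatrix_apply_ne, esym3]
  ring

end ring

variable {F : Type*} [Field F]

theorem isConj_mul3 {n : Type*} [Fintype n] [DecidableEq n] (P P' g : Matrix n n F)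
    (h : P' * P = 1) : IsConj g (P * g * P') := by
  refine isConj_iff_exists_unit.2 ⟨P, ?_, by rw [mul_assoc, h, mul_one]⟩
  exact isUnit_det_of_left_inverse h

theorem mul3_apply (P g P' : Matrix (Fin 3) (Fin 3) F) (a b : Fin 3) : (P * g * P') a b =
    ∑ j, (∑ i, P a i * g i j) * P' j b := by simp [mul_apply]

theorem conj3_A {g : Matrix (Fin 3) (Fin 3) F} (hg : ∀ c : F, g ≠ c • 1) :
    ∃ g', IsConj g g' ∧ g' 1 0 ≠ 0 := by
  by_contra hcon
  push Not at hcon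
  have H : ∀ P P' : Matrix (Fin 3) (Fin 3) F, P' * P = 1 → (P * g * P') 1 0 = 0 :=
    fun P P' h => hcon _ (isConj_mul3 P P' g h)
  have e : ∀ P P' : Matrix (Fin 3) (Fin 3) F, (P * g * P') 1 0 =
      ∑ j, (∑ i, P 1 i * g i j) * P' j 0 := fun P P' => by simp [mul_apply]
  have h10 := H 1 1 (by simp)
  have h01 := H !![0,1,0;1,0,0;0,0,1] !![0,1,0;1,0,0;0,0,1] (by simp [one_fin_three])
  have h20 := H !![1,0,0;0,0,1;0,1,0] !![1,0,0;0,0,1;0,1,0] (by simp [one_fin_three])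
  have h12 := H !![0,0,1;0,1,0;1,0,0] !![0,0,1;0,1,0;1,0,0] (by simp [one_fin_three])
  have h21 := H !![0,1,0;0,0,1;1,0,0] !![0,0,1;1,0,0;0,1,0] (by simp [one_fin_three])
  have h02 := H !![0,0,1;1,0,0;0,1,0] !![0,1,0;0,0,1;1,0,0] (by simp [one_fin_three])
  have h1 := H !![1,0,0;1,1,0;0,0,1] !![1,0,0;-1,1,0;0,0,1] (by simp [one_fin_three])
  have h2 := H !![1,0,0;1,0,1;0,1,0] !![1,0,0;0,0,1;-1,1,0] (by simp [one_fin_three])
  rw [e] at h10 h01 h20 h12 h21 h02 h1 h2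
  simp [Fin.sum_univ_three, one_apply] at h10 h01 h20 h12 h21 h02 h1 h2
  apply hg (g 0 0)
  ext i j
  fin_cases i <;> fin_cases j <;> simp [*]
  · linear_combination -h1 + h10 - h01
  · linear_combination -h2 + h20 - h02

theorem conj3_B {g : Matrix (Fin 3) (Fin 3) F} (hg : g 1 0 ≠ 0) (c : F) :
    ∃ g', IsConj g g' ∧ g' 0 0 = c ∧ g' 1 0 ≠ 0 ∧ g' 2 0 = 0 := by
  set t := (c - g 0 0) / g 1 0
  set s := - g 2 0 / g 1 0
  refine ⟨_, isConj_mul3 !![1,t,0;0,1,0;0,s,1] !![1,-t,0;0,1,0;0,-s,1] g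
    (by simp [one_fin_three]), ?_, ?_, ?_⟩
  · rw [mul3_apply]; simp [Fin.sum_univ_three, t]; field_simp; ring
  · rw [mul3_apply]; simpa [Fin.sum_univ_three] using hg
  · rw [mul3_apply]; simp [Fin.sum_univ_three, s]; field_simp; ring

theorem conj3_C {g : Matrix (Fin 3) (Fin 3) F} (h0 : g 0 0 = 1) (h1 : g 1 0 ≠ 0) (h2 : g 2 0 = 0)
    (hd : g.det ≠ 0) : ∃ g', IsConj g g' ∧ g' 0 0 = 1 ∧ g' 2 1 - g' 2 0 * g' 0 1 ≠ 0 := by
  by_contra hcon
  push Not at hcon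
  have H : ∀ P P' : Matrix (Fin 3) (Fin 3) F, P' * P = 1 → (P * g * P') 0 0 = 1 →
      (P * g * P') 2 1 - (P * g * P') 2 0 * (P * g * P') 0 1 = 0 :=
    fun P P' h => hcon _ (isConj_mul3 P P' g h)
  have a1 := H 1 1 (by simp) (by simpa using h0)
  have a2 := H !![1,0,0;0,0,1;0,1,0] !![1,0,0;0,0,1;0,1,0] (by simp [one_fin_three])
    (by rw [mul3_apply]; simpa [Fin.sum_univ_three] using h0)
  have a3 := H !![1,0,0;0,1,0;0,1,1] !![1,0,0;0,1,0;0,-1,1] (by simp [one_fin_three])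
    (by rw [mul3_apply]; simpa [Fin.sum_univ_three] using h0)
  have a4 := H !![1,0,-1;0,0,1;0,1,0] !![1,1,0;0,0,1;0,1,0] (by simp [one_fin_three])
    (by rw [mul3_apply]; simp [Fin.sum_univ_three, h0, h2])
  simp only [mul3_apply] at a1 a2 a3 a4
  simp [Fin.sum_univ_three, h0, h2, one_apply] at a1 a2 a3 a4
  have h22 : g 2 2 = 0 := by
    have : g 1 0 * g 2 2 = 0 := by linear_combination a4 - a2
    exact (mul_eq_zero.1 this).resolve_left h1
  apply hd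
  rw [det_fin_three, h2, a1, h22]; ring

theorem conj3_D {g : Matrix (Fin 3) (Fin 3) F} (h0 : g 0 0 = 1) (h1 : g 2 1 - g 2 0 * g 0 1 ≠ 0) :
    ∃ g', IsConj g g' ∧ g' 0 0 = 1 ∧ g' 1 1 - g' 1 0 * g' 0 1 = 1 := by
  set t := (1 - (g 1 1 - g 1 0 * g 0 1)) / (g 2 1 - g 2 0 * g 0 1) with ht
  have ht' : t * (g 2 1 - g 2 0 * g 0 1) = 1 - (g 1 1 - g 1 0 * g 0 1) := by
    rw [ht, div_mul_cancel₀ _ h1]
  clear_value t
  refine ⟨_, isConj_mul3 !![1,0,0;0,1,t;0,0,1] !![1,0,0;0,1,-t;0,0,1] g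
    (by simp [one_fin_three]), ?_, ?_⟩
  · rw [mul3_apply]; simpa [Fin.sum_univ_three] using h0
  · simp only [mul3_apply]; simp [Fin.sum_univ_three]; linear_combination ht'

/-- The polynomial `(X - 1)(X² - t X + 1)`. -/
noncomputable def chi3 (t : F) : F[X] := X ^ 3 - C (t + 1) * X ^ 2 + C (t + 1) * X - C 1

theorem squarefree_chi3 {t : F} (ht : t ^ 2 ≠ 4) : Squarefree (chi3 t) := by
  have h4 : 4 - t ^ 2 ≠ 0 := fun h => ht (by linear_combination -h)
  have h2 : 2 - t ≠ 0 := fun h => ht (by rw [show t = 2 by linear_combination -h]; norm_num)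
  have e : chi3 t = (X - C 1) * (X ^ 2 - C t * X + 1) := by
    simp only [chi3, map_add, map_one]; ring
  rw [e]
  refine (Separable.mul (separable_X_sub_C) ?_ ?_).squarefree
  · refine ⟨C (4 * (4 - t ^ 2)⁻¹), -C (4 - t ^ 2)⁻¹ * (2 * X - C t), ?_⟩
    have : C ((4 - t ^ 2)⁻¹) * C (4 - t ^ 2) = (1 : F[X]) := by
      rw [← map_mul, inv_mul_cancel₀ h4, map_one]
    simp only [map_sub, map_pow, map_mul, map_ofNat] at this ⊢
    simp [derivative_X_pow]
    linear_combination this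
  · refine ⟨-C (2 - t)⁻¹ * (X + 1 - C t), C (2 - t)⁻¹, ?_⟩
    have : C ((2 - t)⁻¹) * C (2 - t) = (1 : F[X]) := by
      rw [← map_mul, inv_mul_cancel₀ h2, map_one]
    simp only [map_sub, map_ofNat, map_one] at this ⊢
    linear_combination this

/-- `g` is conjugate to a product of two matrices with characteristic polynomial `chi3 t`. -/
def Fac3 (t : F) (g : Matrix (Fin 3) (Fin 3) F) : Prop :=
  ∃ A B : Matrix (Fin 3) (Fin 3) F, A.charpoly = chi3 t ∧ B.charpoly = chi3 t ∧ IsConj (A * B) g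

theorem Fac3.of_isConj {t : F} {g h : Matrix (Fin 3) (Fin 3) F} (e : IsConj g h) (H : Fac3 t h) :
    Fac3 t g := by
  obtain ⟨A, B, hA, hB, e'⟩ := H
  exact ⟨A, B, hA, hB, e'.trans e.symm⟩

theorem charpoly_eq_chi3 {t : F} {A : Matrix (Fin 3) (Fin 3) F}
    (h1 : A 0 0 + A 1 1 + A 2 2 = t + 1) (h2 : esym3 A = t + 1) (h3 : A.det = 1) :
    A.charpoly = chi3 t := by
  rw [charpoly_three, h1, h2, h3, chi3]

theorem det_of_isConj {n : Type*} [Fintype n] [DecidableEq n] {g h : Matrix n n F}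
    (e : IsConj g h) : g.det = h.det := by
  rw [det_eq_of_charpoly, det_eq_of_charpoly, charpoly_eq_of_isConj e]

theorem fac3_split {a : F} (ha : a ≠ 0) {g : Matrix (Fin 3) (Fin 3) F} (hd : g.det = 1)
    (hg : ∀ c : F, g ≠ c • 1) : Fac3 (a + a⁻¹) g := by
  obtain ⟨g1, e1, h1⟩ := conj3_A hg
  obtain ⟨g2, e2, h20, h21, h22⟩ := conj3_B h1 1
  have d2 : g2.det = 1 := by rw [← det_of_isConj (e1.trans e2), hd]
  obtain ⟨g3, e3, h30, h31⟩ := conj3_C h20 h21 h22 (by rw [d2]; exact one_ne_zero)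
  obtain ⟨k, e4, h0, h1⟩ := conj3_D h30 h31
  have d : k.det = 1 := by rw [← det_of_isConj (e3.trans e4), d2]
  refine Fac3.of_isConj (((e1.trans e2).trans e3).trans e4) ?_
  rw [det_fin_three, h0] at d
  refine ⟨!![1, 0, 0; k 1 0, a, 0; k 2 0, (k 2 1 - k 2 0 * k 0 1) * a, a⁻¹],
    !![1, k 0 1, k 0 2; 0, a⁻¹, a⁻¹ * (k 1 2 - k 1 0 * k 0 2); 0, 0, a], ?_, ?_, ?_⟩
  · refine charpoly_eq_chi3 ?_ ?_ ?_
    · simp; ring
    · simp [esym3, ha]
    · simp [det_fin_three, ha]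
  · refine charpoly_eq_chi3 ?_ ?_ ?_
    · simp; ring
    · simp [esym3, ha]; ring
    · simp [det_fin_three, ha]
  · convert IsConj.refl k using 1
    have hi : a * a⁻¹ = 1 := mul_inv_cancel₀ ha
    ext i j
    fin_cases i <;> fin_cases j <;> simp [mul_apply, Fin.sum_univ_three, h0]
    · linear_combination -h1 + hi
    · linear_combination (k 1 2 - k 1 0 * k 0 2) * hi
    · linear_combination (k 2 1 - k 2 0 * k 0 1) * hi
    · linear_combination -d + (1 + (k 2 1 - k 2 0 * k 0 1) * (k 1 2 - k 1 0 * k 0 2)) * hi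
        + (k 2 2 - k 2 0 * k 0 2) * h1

/-- Nine entries. -/
structure T9 where
  /-- entry -/
  (a b c d e f g h i : ℕ)

/-- The finite check for the field with three elements. -/
def list33 : List T9 :=
  [⟨0,0,2,0,1,0,1,0,0⟩,
   ⟨0,1,2,0,1,0,1,0,0⟩,
   ⟨0,2,2,0,1,0,1,0,0⟩,
   ⟨0,0,1,0,1,0,2,0,0⟩,
   ⟨0,2,1,0,1,0,2,0,0⟩,
   ⟨0,1,1,0,1,0,2,0,0⟩,
   ⟨1,0,0,1,0,2,2,1,0⟩,
   ⟨1,0,0,2,0,1,2,2,0⟩,
   ⟨0,1,1,1,0,2,0,2,1⟩,
   ⟨0,2,1,2,0,1,0,1,1⟩,
   ⟨2,2,2,1,2,1,1,2,0⟩,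
   ⟨1,2,0,0,2,2,0,2,1⟩,
   ⟨2,0,1,1,1,2,1,0,1⟩,
   ⟨0,0,1,0,1,0,2,2,0⟩,
   ⟨2,1,0,0,2,1,1,0,0⟩,
   ⟨1,2,2,0,1,1,0,1,2⟩,
   ⟨1,2,0,1,0,2,1,0,0⟩]

/-- The matrix of nine entries. -/
def T9.mat (m : T9) : Matrix (Fin 3) (Fin 3) (ZMod 3) :=
  !![(m.a : ZMod 3), m.b, m.c; m.d, m.e, m.f; m.g, m.h, m.i]

/-- Product with a matrix whose first column is `(0, c, 0)`. -/
def T9.mulc (m : T9) (a b c d e f h : ℕ) : T9 :=
  ⟨m.b * c, m.a * a + m.b * d + m.c * f, m.a * b + m.b * e + m.c * h,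
   m.e * c, m.d * a + m.e * d + m.f * f, m.d * b + m.e * e + m.f * h,
   m.h * c, m.g * a + m.h * d + m.i * f, m.g * b + m.h * e + m.i * h⟩

/-- Trace and second invariant are one. -/
def T9.ok (m : T9) : Bool :=
  (m.a + m.e + m.i) % 3 == 1 &&
    (m.a * m.e + 2 * (m.b * m.d) + m.a * m.i + 2 * (m.c * m.g) + m.e * m.i + 2 * (m.f * m.h)) % 3 == 1

theorem T9.ok_spec {m : T9} (h : m.ok = true) :
    m.mat 0 0 + m.mat 1 1 + m.mat 2 2 = 0 + 1 ∧ esym3 m.mat = 0 + 1 := by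
  simp only [T9.ok, Bool.and_eq_true, beq_iff_eq] at h
  have h1 := (ZMod.natCast_eq_natCast_iff' _ 1 3).2 h.1
  have h2 := (ZMod.natCast_eq_natCast_iff' _ 1 3).2 h.2
  push_cast at h1 h2
  have h3 : (3 : ZMod 3) = 0 := rfl
  constructor
  · simpa [T9.mat] using h1
  · simp [T9.mat, esym3]
    linear_combination h2 - ((m.b : ZMod 3) * m.d + m.c * m.g + m.f * m.h) * h3

theorem T9.mat_mulc (m : T9) (a b c d e f h : ℕ) : (m.mulc a b c d e f h).mat =
    m.mat * !![0, (a : ZMod 3), b; c, d, e; 0, f, h] := by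
  simp [T9.mat, T9.mulc, add_assoc]

theorem check33_list : ∀ m ∈ list33, (m.mat ^ 3) 0 0 + (m.mat ^ 3) 1 1 + (m.mat ^ 3) 2 2 = 0 + 1 ∧
    esym3 (m.mat ^ 3) = 0 + 1 ∧ m.mat.det = 1 ∧ m.mat ^ 3 * m.mat = 1 := by
  simp only [det_fin_three]
  decide +kernel

theorem check33 : ((List.range 3).all fun a => (List.range 3).all fun b =>
    (List.range 3).all fun c => (List.range 3).all fun d => (List.range 3).all fun e =>
    (List.range 3).all fun f => (List.range 3).all fun h =>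
      (c * (b * f + 2 * (a * h))) % 3 != 1 || list33.any fun m => (m.mulc a b c d e f h).ok) = true := by
  decide +kernel

theorem fac3_zmod3 {g : Matrix (Fin 3) (Fin 3) (ZMod 3)} (hd : g.det = 1)
    (hg : ∀ c : ZMod 3, g ≠ c • 1) : Fac3 (0 : ZMod 3) g := by
  haveI : Fact (Nat.Prime 3) := ⟨Nat.prime_three⟩
  obtain ⟨g1, e1, h1⟩ := conj3_A hg
  obtain ⟨k, e2, h0, -, h2⟩ := conj3_B h1 0
  have d : k.det = 1 := by rw [← det_of_isConj (e1.trans e2), hd]
  refine Fac3.of_isConj (e1.trans e2) ?_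
  have hk : k = !![0, ((k 0 1).val : ZMod 3), (k 0 2).val; (k 1 0).val, (k 1 1).val, (k 1 2).val;
      0, (k 2 1).val, (k 2 2).val] := by
    simp only [ZMod.natCast_zmod_val]
    conv_lhs => rw [eta_fin_three k, h0, h2]
  have H := check33
  simp only [List.all_eq_true, List.mem_range, Bool.or_eq_true, List.any_eq_true] at H
  have hl : ∀ x : ZMod 3, x.val < 3 := fun x => ZMod.val_lt x
  rcases H _ (hl (k 0 1)) _ (hl (k 0 2)) _ (hl (k 1 0)) _ (hl (k 1 1)) _ (hl (k 1 2))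
    _ (hl (k 2 1)) _ (hl (k 2 2)) with H | ⟨m, hm, H⟩
  · exfalso
    simp only [bne_iff_ne] at H
    apply H
    refine (ZMod.natCast_eq_natCast_iff' _ 1 3).1 ?_
    push_cast
    simp only [ZMod.natCast_zmod_val]
    rw [det_fin_three, h0, h2] at d
    have h3 : (3 : ZMod 3) = 0 := rfl
    linear_combination d + (k 1 0 * k 0 1 * k 2 2) * h3
  · obtain ⟨t1, t2⟩ := T9.ok_spec H
    rw [T9.mat_mulc, ← hk] at t1 t2
    obtain ⟨a1, a2, a3, a4⟩ := check33_list m hm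
    refine ⟨m.mat ^ 3, m.mat * k, charpoly_eq_chi3 a1 a2 (by simp [a3]),
      charpoly_eq_chi3 t1 t2 (by simp [a3, d]), ?_⟩
    rw [← mul_assoc, a4, one_mul]

theorem fac3_three [Fintype F] (h3 : Fintype.card F = 3) {g : Matrix (Fin 3) (Fin 3) F}
    (hd : g.det = 1) (hg : ∀ c : F, g ≠ c • 1) : Fac3 (0 : F) g := by
  haveI : Fact (Nat.Prime 3) := ⟨Nat.prime_three⟩
  let e : ZMod 3 ≃+* F := ZMod.ringEquivOfPrime F Nat.prime_three h3
  let φ : Matrix (Fin 3) (Fin 3) (ZMod 3) ≃+* Matrix (Fin 3) (Fin 3) F := e.mapMatrix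
  obtain ⟨g, rfl⟩ := φ.surjective g
  have hd' : g.det = 1 := by
    apply e.injective
    rw [map_one, ← hd]
    exact (e : ZMod 3 →+* F).map_det g
  obtain ⟨A, B, hA, hB, c⟩ := fac3_zmod3 hd' fun c h => hg (e c) (by
    rw [h]; ext i j; simp [φ, one_apply]; split_ifs <;> simp)
  have hc : ∀ A : Matrix (Fin 3) (Fin 3) (ZMod 3), A.charpoly = chi3 0 →
      (φ A).charpoly = chi3 0 := by
    intro A hA
    have := charpoly_map A (e : ZMod 3 →+* F)
    rw [hA] at this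
    refine Eq.trans this ?_
    simp [chi3]
  refine ⟨φ A, φ B, hc A hA, hc B hB, ?_⟩
  rw [← map_mul]
  exact MonoidHom.map_isConj φ.toRingHom.toMonoidHom c

theorem exists_sl3_cover [Fintype F] (p : ℕ) [Fact p.Prime] [CharP F p] (h3 : 3 ≤ Fintype.card F) :
    ∃ x : SpecialLinearGroup (Fin 3) F, (orderOf x).Coprime p ∧
      ∀ g : SpecialLinearGroup (Fin 3) F, (∀ c : F, (g : Matrix (Fin 3) (Fin 3) F) ≠ c • 1) →
        ∃ u v : SpecialLinearGroup (Fin 3) F, g = (u * x * u⁻¹) * (v * x * v⁻¹) := by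
  classical
  obtain ⟨t, ht, H⟩ : ∃ t : F, t ^ 2 ≠ 4 ∧ ∀ g : Matrix (Fin 3) (Fin 3) F, g.det = 1 →
      (∀ c : F, g ≠ c • 1) → Fac3 t g := by
    rcases h3.eq_or_lt with h | h
    · refine ⟨0, ?_, fun g => fac3_three h.symm⟩
      have : ((3 : ℕ) : F) = 0 := by rw [h]; exact FiniteField.cast_card_eq_zero F
      intro h4
      exact one_ne_zero (α := F) (by push_cast at this; linear_combination -h4 - this)
    · obtain ⟨a, ha⟩ : ∃ a : Fˣ, a ^ 2 ≠ 1 := by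
        obtain ⟨a, ha⟩ := IsCyclic.exists_ofOrder_eq_natCard (α := Fˣ)
        refine ⟨a, fun h2 => ?_⟩
        have := Nat.le_of_dvd (by norm_num) (orderOf_dvd_of_pow_eq_one h2)
        rw [ha, Nat.card_eq_fintype_card, Fintype.card_units] at this
        omega
      refine ⟨a + (a : F)⁻¹, fun h4 => ha ?_, fun g => fac3_split a.ne_zero⟩
      ext
      have h0 := a.ne_zero
      field_simp at h4
      push_cast
      have : ((a : F) ^ 2 - 1) ^ 2 = 0 := by linear_combination h4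
      linear_combination pow_eq_zero_iff (n := 2) (by norm_num) |>.1 this
  have hsq := squarefree_chi3 ht
  have hdet : ∀ A : Matrix (Fin 3) (Fin 3) F, A.charpoly = chi3 t → A.det = 1 := by
    intro A hA
    rw [det_eq_of_charpoly, hA]
    simp [chi3]
    norm_num
  have hae : ∀ A : Matrix (Fin 3) (Fin 3) F, A.charpoly = chi3 t → aeval A (chi3 t) = 0 :=
    fun A hA => hA ▸ aeval_self_charpoly A
  let x0 : Matrix (Fin 3) (Fin 3) F := !![1, 0, 0; 0, 0, -1; 0, 1, t]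
  have hx0 : x0.charpoly = chi3 t :=
    charpoly_eq_chi3 (by simp [x0]; ring) (by simp [x0, esym3]) (by simp [x0, det_fin_three])
  let x : SpecialLinearGroup (Fin 3) F := ⟨x0, hdet _ hx0⟩
  have hconj : ∀ A : SpecialLinearGroup (Fin 3) F,
      (A : Matrix (Fin 3) (Fin 3) F).charpoly = chi3 t → IsConj x A := fun A hA =>
    isConj_SL_of_isConj (isConj_of_charpoly_eq hsq hsq (hae _ hx0) (hae _ hA) (hx0.trans hA.symm))
      fun d _ => det_surj_of_squarefree hsq (hae _ hx0) d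
  refine ⟨x, ?_, fun g hg => ?_⟩
  · have e : orderOf x = orderOf x0 :=
      (orderOf_injective (SpecialLinearGroup.coeMonoidHom) Subtype.val_injective x).symm
    rw [e, coprime_orderOf_iff_edM p (A := x0) ((SpecialLinearGroup.coeMonoidHom).isOfFinOrder
      (isOfFinOrder_of_finite x))]
    intro y hy
    exact ed_exp_eq_one hsq (by rw [aeval_toLin', hae _ hx0, map_zero]) hy
  · obtain ⟨A, B, hA, hB, c⟩ := H g g.2 hg
    obtain ⟨P, hP⟩ := c
    have hP' : (g : Matrix (Fin 3) (Fin 3) F) = (P.val * A * P⁻¹.val) * (P.val * B * P⁻¹.val) := by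
      have : (P : Matrix (Fin 3) (Fin 3) F) * (A * B) = g * P := hP
      calc (g : Matrix (Fin 3) (Fin 3) F) = g * P.val * P⁻¹.val := by
            rw [mul_assoc, Units.mul_inv, mul_one]
        _ = _ := by rw [← this]; simp only [mul_assoc, Units.inv_mul_cancel_left]
    have cc : ∀ A : Matrix (Fin 3) (Fin 3) F, A.charpoly = chi3 t →
        (P.val * A * P⁻¹.val).charpoly = chi3 t := fun A hA => by
      rw [← charpoly_eq_of_isConj (isConj_mul3 _ _ A P.inv_mul), hA]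
    obtain ⟨u, hu⟩ := isConj_iff.1 (hconj ⟨_, hdet _ (cc A hA)⟩ (cc A hA))
    obtain ⟨v, hv⟩ := isConj_iff.1 (hconj ⟨_, hdet _ (cc B hB)⟩ (cc B hB))
    refine ⟨u, v, ?_⟩
    rw [hu, hv]
    exact Subtype.ext hP'

end CfsgLib.Spec
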