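import Mathlib
import Cfsg.Agent.Lib.Spec.Adj
import Cfsg.Agent.Lib.Spec.Zsig

/-! Elements of order `|e ^ (n / 2) + 1|` in `PSL(n, q)` and `PSU(n, q)`. -/

set_option autoImplicit false

namespace CfsgLib.Spec

open Finset

theorem dvd_geom_sum_iff {d e : ℤ} (h : d ∣ e - 1) (k : ℕ) : d ∣ ∑ i ∈ range k, e ^ i ↔ d ∣ k := by
  simpa using dvd_geom_sum₂_iff_of_dvd_sub' (x := e) (y := 1) (n := k) h |>.trans
    (dvd_iff_dvd_of_dvd_sub (by
      simpa [← mul_sub_one] using (h.trans (by simpa using sub_dvd_pow_sub_pow e 1 (k - 1))).mul_left (k : ℤ)))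

theorem geom_sum_two_mul (e : ℤ) (k : ℕ) :
    ∑ i ∈ range (2 * k), e ^ i = (∑ i ∈ range k, e ^ i) * (e ^ k + 1) := by
  rw [two_mul, sum_range_add, mul_add, mul_one, add_comm, sum_mul]
  simp only [pow_add, mul_comm]

variable {K : Type*} [Field K] [DecidableEq K]

theorem half_torus_mem_iff [IsAlgClosed K] {p : ℕ} [hp : Fact p.Prime] [CharP K p] {e : ℤ} (he : (p : ℤ) ∣ e)
    (hφ : Function.Injective fun a : K => a ^ e) {k : ℕ} (hk : k ≠ 0) (he1 : e ≠ 1) (hek : e ^ k + 1 ≠ 0)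
    {r : ℕ} (hr : r.Prime) (hr1 : (r : ℤ) ∣ e ^ k + 1) (hr2 : ∀ d, (r : ℤ) ∣ e ^ d - 1 → 2 * k ∣ d) :
    (∃ N ∈ omegaLU K p e (2 * k), (e ^ k + 1).natAbs ∣ N) ↔
      padicValNat 2 (e - 1).natAbs < padicValNat 2 (2 * k) := by
  have he0 : (e - 1).natAbs ≠ 0 := by omega
  have hp1 : ¬ (p : ℤ) ∣ e ^ k + 1 := fun h => by
    have := (dvd_add_right (he.trans (dvd_pow_self e hk))).1 h
    exact hp.out.one_lt.ne' (by exact_mod_cast Int.eq_one_of_dvd_one (by positivity) this)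
  constructor
  · rintro ⟨N, ⟨S, h1, h2, h3, h4⟩, hN⟩
    have hrp : r ≠ p := by rintro rfl; exact hp1 hr1
    obtain ⟨a, ha, hra⟩ := h4.exists_prime_dvd hp.out hr hrp ((Int.natCast_dvd.1 hr1).trans hN)
    have ha0 : a ≠ 0 := fun h => zero_notMem_of_prod_eq_one h3 (h ▸ ha)
    have h5 := Nat.le_of_dvd (h2.minimalPeriod_pos hφ ha) (hr2 _ (dvd_pow_period_sub_one ha0 hra))
    have h6 := Multiset.eq_of_le_of_card_le (h2.cyc_le ha) (by rw [card_cyc]; omega)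
    have h7 : Function.minimalPeriod (fun x : K => x ^ e) a = 2 * k := by rw [← h1, ← h6, card_cyc]
    rw [h7] at h6
    obtain ⟨j, -, h4⟩ := h4
    by_contra hcon
    have h8 : ((2 ^ padicValNat 2 (2 * k) : ℕ) : ℤ) ∣ e - 1 :=
      Int.natCast_dvd.2 ((padicValNat_dvd_iff_le he0).2 (by omega))
    obtain ⟨g, hg⟩ := (dvd_geom_sum_iff h8 (2 * k)).2 (Int.natCast_dvd_natCast.2 pow_padicValNat_dvd)
    rw [← h6, prod_cyc_zpow e ha0, zpow_eq_one_iff_orderOf_dvd ha0] at h3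
    have h9 := hN.trans ((h4 (p ^ j * g.natAbs)).2 ⟨dvd_mul_right _ _, h6 ▸ powEq_cyc_of_dvd ha0 _ (h3.trans (by
      rw [hg]
      push_cast
      exact mul_dvd_mul (by simpa using h8) (Dvd.dvd.mul_left (by simp) _)))⟩)
    have h10 := (Nat.Coprime.pow_right j ((Nat.Prime.coprime_iff_not_dvd hp.out).2
      (fun h => hp1 (Int.natCast_dvd.2 h))).symm).dvd_of_dvd_mul_left h9
    obtain ⟨c, rfl⟩ := Int.natAbs_dvd_natAbs.1 h10
    rw [geom_sum_two_mul, mul_left_comm, mul_comm, mul_right_inj' hek] at hg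
    have h11 := Int.natCast_dvd_natCast.1 ((dvd_geom_sum_iff h8 k).1 ⟨c, hg⟩)
    rw [padicValNat_dvd_iff_le hk, padicValNat.mul two_ne_zero hk, padicValNat_self] at h11
    omega
  · intro h
    obtain ⟨T, hT, h1⟩ := exists_singer (K := K) he hφ (n := 2 * k) (by omega)
    refine ⟨T, hT, ?_⟩
    have h2 := (h1 T).1 dvd_rfl
    obtain ⟨o, ho⟩ : ((2 ^ padicValNat 2 (e - 1).natAbs : ℕ) : ℤ) ∣ e - 1 := Int.natCast_dvd.2 pow_padicValNat_dvd
    have h3 : Odd o := by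
      rw [← Int.not_even_iff_odd]
      rintro ⟨c, rfl⟩
      refine pow_succ_padicValNat_not_dvd (p := 2) he0 (Int.natCast_dvd.1 ⟨c, ?_⟩)
      conv_lhs => rw [ho]
      push_cast
      ring
    rw [padicValNat.mul two_ne_zero hk, padicValNat_self] at h
    obtain ⟨g, hg⟩ := (dvd_geom_sum_iff ⟨o, ho⟩ k).2
      (Int.natCast_dvd_natCast.2 ((padicValNat_dvd_iff_le hk).2 (by omega)))
    rw [geom_sum_two_mul, hg] at h2
    conv at h2 => rhs; rw [ho]
    rw [mul_assoc, mul_assoc, mul_dvd_mul_iff_left (by positivity)] at h2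
    have h4 : IsCoprime (e ^ k + 1) o := by
      obtain ⟨c, hc⟩ : o ∣ e ^ k - 1 := (Dvd.intro_left _ ho.symm).trans (by simpa using sub_dvd_pow_sub_pow e 1 k)
      obtain ⟨t, rfl⟩ := h3
      exact ⟨-t, 1 + t * c, by linear_combination (-t) * hc⟩
    exact Int.natCast_dvd_natCast.1 (Int.natAbs_dvd.2 (h4.dvd_of_dvd_mul_left ((Dvd.intro_left _ rfl).trans h2)))

theorem exists_zsig_pos {q k : ℕ} (hq : 1 < q) (hodd : Odd q) (hk : 2 ≤ k) :
    ∃ r : ℕ, r.Prime ∧ (r : ℤ) ∣ (q : ℤ) ^ k + 1 ∧ ∀ d, (r : ℤ) ∣ (q : ℤ) ^ d - 1 → 2 * k ∣ d := by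
  obtain ⟨r, hr, h⟩ := exists_prime_orderOf_eq hq (n := 2 * k) (by omega)
    (by rintro ⟨rfl, -⟩; exact absurd hodd (by decide)) (by omega)
  refine ⟨r, hr, by exact_mod_cast dvd_pow_add_one_of_orderOf hr (by omega) h.symm, fun d hd => ?_⟩
  rw [← h, zmod_orderOf_dvd_iff (by omega)]
  exact hd

theorem exists_zsig_neg {q k : ℕ} (hq : 1 < q) (hodd : Odd q) (hk : 2 ≤ k) :
    ∃ r : ℕ, r.Prime ∧ (r : ℤ) ∣ (-(q : ℤ)) ^ k + 1 ∧ ∀ d, (r : ℤ) ∣ (-(q : ℤ)) ^ d - 1 → 2 * k ∣ d := by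
  have key : ∀ (r : ℕ) (d : ℕ), (r : ℤ) ∣ (-(q : ℤ)) ^ d - 1 → orderOf (q : ZMod r) ∣ 2 * d := by
    intro r d h
    rw [zmod_orderOf_dvd_iff (by omega), ← Even.neg_pow (even_two_mul d), mul_comm, pow_mul]
    exact h.trans (by simpa using sub_dvd_pow_sub_pow ((-(q : ℤ)) ^ d) 1 2)
  rcases Nat.even_or_odd k with hk' | hk'
  · obtain ⟨r, hr, h⟩ := exists_prime_orderOf_eq hq (n := 2 * k) (by omega)
      (by rintro ⟨rfl, -⟩; exact absurd hodd (by decide)) (by omega)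
    refine ⟨r, hr, by rw [hk'.neg_pow]; exact_mod_cast dvd_pow_add_one_of_orderOf hr (by omega) h.symm,
      fun d hd => ?_⟩
    have h1 := key r d hd
    rw [h, Nat.mul_dvd_mul_iff_left two_pos] at h1
    rw [← h, zmod_orderOf_dvd_iff (by omega), ← (hk'.trans_dvd h1).neg_pow]
    exact hd
  · obtain ⟨r, hr, h⟩ := exists_prime_orderOf_eq hq (n := k) (by omega)
      (by rintro ⟨rfl, -⟩; exact absurd hodd (by decide)) (by rintro ⟨rfl, -⟩; exact absurd hk' (by decide))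
    have h0 := fun d => zmod_orderOf_dvd_iff (q := q) (by omega) r d
    refine ⟨r, hr, by rw [hk'.neg_pow, ← dvd_neg]; simpa [add_comm, sub_eq_add_neg] using (h0 k).1 h.dvd,
      fun d hd => ?_⟩
    have h1 := key r d hd
    rw [h] at h1
    have h2 := (Odd.coprime_two_right hk').dvd_of_dvd_mul_left h1
    refine (Odd.coprime_two_left hk').mul_dvd_of_dvd_of_dvd ?_ h2
    by_contra h3
    rw [(Nat.not_even_iff_odd.1 fun h4 => h3 h4.two_dvd).neg_pow] at hd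
    have h4 : (r : ℤ) ∣ 2 := by
      simpa using dvd_neg.2 (dvd_add hd ((h0 d).1 (h ▸ h2)))
    obtain rfl := (Nat.prime_dvd_prime_iff_eq hr Nat.prime_two).1 (by exact_mod_cast h4)
    have := Nat.le_of_dvd one_pos (h ▸ (h0 1).2 (by simpa using (hodd.natCast.sub_odd odd_one).two_dvd))
    omega

end CfsgLib.Spec
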